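import Mathlib
import Cfsg.Prelude.Def_Solvable
import Cfsg.Agent.Lib.Basic.PCore
import Cfsg.Agent.Lib.Compute.PermCert

/-!
# Overgroups of a cyclic subgroup of `A₈`: a kernel-checked lattice

A `Config` lists a permutation `x`, representatives of the double cosets of `⟨x⟩` in `A₈` and a family
of subgroups closed under joins (with the words proving it).  `Config.check` is evaluated by the kernel.
The result: a subgroup of `A₈` containing `x` is one of the listed subgroups.
-/

set_option autoImplicit false

namespace Cfsg.Agent.Lib.Compute.A8Lat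

open Cfsg.Agent.Lib.Compute.PermCert

/-- The permutations of eight points. -/
abbrev P8 := Equiv.Perm (Fin 8)

/-- The permutation of a table, on eight points. -/
abbrev pm (e : Elt) : P8 := permOf 4 15 8 e

/-- The group generated by a list, on eight points. -/
abbrev grp (gs : List Elt) : Subgroup P8 := genGroup 4 15 8 gs

/-! ### Words -/

/-- The elements `gs` are the values of the words `us` over `L`. -/
def wordsCheck (L : List Elt) : List Elt → List (List Nat) → Bool
  | [], _ => true
  | _ :: _, [] => false
  | t :: ts, u :: us => wordCheck 4 15 8 L u t && wordsCheck L ts us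

theorem wordsCheck_mem {L gs : List Elt} {us : List (List Nat)} (hL : L.all (validB 4 15 8) = true)
    (hg : gs.all (validB 4 15 8) = true) (h : wordsCheck L gs us = true) :
    ∀ t ∈ gs, pm t ∈ grp L := by
  induction gs generalizing us with
  | nil => simp
  | cons a t ih =>
    cases us with
    | nil => simp [wordsCheck] at h
    | cons u us =>
      simp only [wordsCheck, Bool.and_eq_true] at h
      simp only [List.all_cons, Bool.and_eq_true] at hg
      intro y hy
      rcases List.mem_cons.mp hy with hy | hy
      · subst hy; exact wordCheck_mem hL hg.1 h.1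
      · exact ih hg.2 h.2 y hy

theorem grp_le_of_mem {gs : List Elt} {K : Subgroup P8} (h : ∀ t ∈ gs, pm t ∈ K) : grp gs ≤ K := by
  refine (Subgroup.closure_le _).mpr ?_
  rintro _ ⟨t, ht, rfl⟩
  exact h t ht

theorem wordsCheck_le {L gs : List Elt} {us : List (List Nat)} (hL : L.all (validB 4 15 8) = true)
    (hg : gs.all (validB 4 15 8) = true) (h : wordsCheck L gs us = true) : grp gs ≤ grp L :=
  grp_le_of_mem (wordsCheck_mem hL hg h)

theorem pm_mem_grp {gs : List Elt} {t : Elt} (ht : t ∈ gs) : pm t ∈ grp gs :=
  permOf_mem_genGroup ht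

theorem grp_append_le {a b : List Elt} : grp (a ++ b) ≤ grp a ⊔ grp b := by
  refine grp_le_of_mem ?_
  intro t ht
  rcases List.mem_append.mp ht with h | h
  · exact Subgroup.mem_sup_left (pm_mem_grp h)
  · exact Subgroup.mem_sup_right (pm_mem_grp h)

theorem grp_le_iff_mem {gs : List Elt} {K : Subgroup P8} : grp gs ≤ K ↔ ∀ t ∈ gs, pm t ∈ K :=
  ⟨fun h t ht => h (pm_mem_grp ht), grp_le_of_mem⟩

/-! ### The table of the lattice -/

/-- A double coset representative `r`, the subgroup `s` generated by `x` and `r`, and the words: the generators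
of `s` over `[x, r]`, and `r` over the generators of `s`.  `nrm` says that `r` normalizes `⟨x⟩`. -/
structure RepEntry where
  r : Elt
  nrm : Bool
  s : Nat
  up : List (List Nat)
  down : List Nat

/-- A pair of subgroups: the second lies in the first, or their join contains a later subgroup. -/
inductive PairEntry where
  | le (us : List (List Nat))
  | up (i' : Nat) (us : List (List Nat))

/-- The data of a lattice. -/
structure Config where
  x : Elt
  pows : List Elt
  powsW : List (List Nat)
  rest : List (List Elt)
  reps : List RepEntry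
  pairs : List (List PairEntry)

/-- The list of all the subgroups: the first one is generated by `x`. -/
def Config.grps (c : Config) : List (List Elt) := [c.x] :: c.rest

/-- The check of a representative. -/
def repCheck (grps : List (List Elt)) (x : Elt) (e : RepEntry) : Bool :=
  validB 4 15 8 e.r &&
    match nth grps e.s with
    | none => false
    | some gs => wordsCheck [x, e.r] gs e.up && wordCheck 4 15 8 gs e.down e.r

/-- The check of a pair. -/
def entryCheck (grps : List (List Elt)) (i : Nat) (gi gs : List Elt) : PairEntry → Bool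
  | .le us => wordsCheck gi gs us
  | .up i' us =>
    Nat.blt i i' &&
      match nth grps i' with
      | none => false
      | some g' => wordsCheck (gi ++ gs) g' us

/-- The check of a row of the table of pairs. -/
def rowCheck (grps : List (List Elt)) (i : Nat) (gi : List Elt) : List (List Elt) → List PairEntry → Bool
  | [], _ => true
  | _ :: _, [] => false
  | gs :: l, e :: es => entryCheck grps i gi gs e && rowCheck grps i gi l es

/-- The check of the rows of the table of pairs. -/
def rowsCheck (grps : List (List Elt)) : Nat → List (List Elt) → List (List PairEntry) → Bool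
  | _, [], _ => true
  | _, _ :: _, [] => false
  | i, gi :: l, r :: rs => rowCheck grps i gi grps r && rowsCheck grps (i + 1) l rs

/-- The check of a configuration. -/
def Config.check (c : Config) : Bool :=
  validB 4 15 8 c.x &&
    c.pows.all (validB 4 15 8) &&
    wordsCheck [c.x] c.pows c.powsW &&
    c.rest.all (fun gs => gs.all (validB 4 15 8)) &&
    c.reps.all (repCheck c.grps c.x) &&
    rowsCheck c.grps 0 c.grps c.pairs

/-- What the entry of a pair says. -/
def PairFact (grps : List (List Elt)) (i : Nat) (gi gs : List Elt) : Prop :=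
  grp gs ≤ grp gi ∨ ∃ i' g', i < i' ∧ nth grps i' = some g' ∧ grp g' ≤ grp gi ⊔ grp gs

theorem nth_lt {α : Type} {l : List α} {k : Nat} {a : α} (h : nth l k = some a) : k < l.length := by
  induction l generalizing k with
  | nil => simp [nth] at h
  | cons b t ih =>
    cases k with
    | zero => simp
    | succ j =>
      have := ih (k := j) (by simpa [nth] using h)
      simpa using this

theorem mem_exists_nth {α : Type} {l : List α} {a : α} (h : a ∈ l) : ∃ k, nth l k = some a := by
  induction l with
  | nil => simp at h
  | cons b t ih =>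
    rcases List.mem_cons.mp h with h | h
    · subst h; exact ⟨0, rfl⟩
    · obtain ⟨k, hk⟩ := ih h
      exact ⟨k + 1, hk⟩

section Sound

variable {grps : List (List Elt)}

theorem entry_sound (hv : ∀ gs ∈ grps, gs.all (validB 4 15 8) = true) {i : Nat} {gi gs : List Elt}
    (hgi : gi ∈ grps) (hgs : gs ∈ grps) {e : PairEntry} (h : entryCheck grps i gi gs e = true) :
    PairFact grps i gi gs := by
  cases e with
  | le us => exact Or.inl (wordsCheck_le (hv _ hgi) (hv _ hgs) h)
  | up i' us =>
    simp only [entryCheck, Bool.and_eq_true, Nat.blt_eq] at h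
    obtain ⟨h1, h2⟩ := h
    cases hn : nth grps i' with
    | none => simp [hn] at h2
    | some g' =>
      simp only [hn] at h2
      refine Or.inr ⟨i', g', h1, hn, ?_⟩
      refine le_trans (wordsCheck_le ?_ (hv _ (nth_mem hn)) h2) grp_append_le
      rw [List.all_append, Bool.and_eq_true]
      exact ⟨hv _ hgi, hv _ hgs⟩

theorem row_sound (hv : ∀ gs ∈ grps, gs.all (validB 4 15 8) = true) {i : Nat} {gi : List Elt}
    (hgi : gi ∈ grps) {l : List (List Elt)} (hl : ∀ gs ∈ l, gs ∈ grps) {r : List PairEntry}
    (h : rowCheck grps i gi l r = true) : ∀ gs ∈ l, PairFact grps i gi gs := by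
  induction l generalizing r with
  | nil => simp
  | cons a t ih =>
    cases r with
    | nil => simp [rowCheck] at h
    | cons e es =>
      simp only [rowCheck, Bool.and_eq_true] at h
      intro gs hgs
      rcases List.mem_cons.mp hgs with hgs | hgs
      · subst hgs
        exact entry_sound hv hgi (hl _ List.mem_cons_self) h.1
      · exact ih (fun g hg => hl g (List.mem_cons_of_mem _ hg)) h.2 gs hgs

theorem rows_sound (hv : ∀ gs ∈ grps, gs.all (validB 4 15 8) = true) {i : Nat} {l : List (List Elt)}
    (hl : ∀ gs ∈ l, gs ∈ grps) {rs : List (List PairEntry)} (h : rowsCheck grps i l rs = true) :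
    ∀ k gi, nth l k = some gi → ∀ gs ∈ grps, PairFact grps (i + k) gi gs := by
  induction l generalizing i rs with
  | nil => intro k gi hk; simp [nth] at hk
  | cons a t ih =>
    cases rs with
    | nil => simp [rowsCheck] at h
    | cons r rs =>
      simp only [rowsCheck, Bool.and_eq_true] at h
      intro k gi hk
      cases k with
      | zero =>
        simp only [nth, Option.some.injEq] at hk
        subst hk
        exact row_sound hv (hl _ List.mem_cons_self) (fun g hg => hg) h.1
      | succ j =>
        have := ih (fun g hg => hl g (List.mem_cons_of_mem _ hg)) h.2 j gi hk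
        have e : i + (j + 1) = i + 1 + j := by omega
        rw [e]
        exact this

end Sound

/-- The facts delivered by the check. -/
structure ConfigFacts (c : Config) : Prop where
  x_valid : validB 4 15 8 c.x = true
  pows_valid : c.pows.all (validB 4 15 8) = true
  pows_mem : ∀ a ∈ c.pows, pm a ∈ grp [c.x]
  grps_valid : ∀ gs ∈ c.grps, gs.all (validB 4 15 8) = true
  reps_valid : ∀ e ∈ c.reps, validB 4 15 8 e.r = true
  reps : ∀ e ∈ c.reps, ∃ gs, nth c.grps e.s = some gs ∧
    wordsCheck [c.x, e.r] gs e.up = true ∧ wordCheck 4 15 8 gs e.down e.r = true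
  pairs : ∀ k gi, nth c.grps k = some gi → ∀ gs ∈ c.grps, PairFact c.grps k gi gs

theorem configFacts {c : Config} (h : c.check = true) : ConfigFacts c := by
  simp only [Config.check, Bool.and_eq_true] at h
  obtain ⟨⟨⟨⟨⟨h1, h2⟩, h3⟩, h4⟩, h5⟩, h6⟩ := h
  have hv : ∀ gs ∈ c.grps, gs.all (validB 4 15 8) = true := by
    intro gs hgs
    rcases List.mem_cons.mp hgs with hgs | hgs
    · subst hgs
      simpa using h1
    · rw [List.all_eq_true] at h4
      exact h4 gs hgs
  rw [List.all_eq_true] at h5
  have hrep : ∀ e ∈ c.reps, validB 4 15 8 e.r = true ∧ ∃ gs, nth c.grps e.s = some gs ∧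
      wordsCheck [c.x, e.r] gs e.up = true ∧ wordCheck 4 15 8 gs e.down e.r = true := by
    intro e he
    have := h5 e he
    rw [repCheck, Bool.and_eq_true] at this
    refine ⟨this.1, ?_⟩
    have h7 := this.2
    cases hn : nth c.grps e.s with
    | none => simp [hn] at h7
    | some gs =>
      simp only [hn, Bool.and_eq_true] at h7
      exact ⟨gs, rfl, h7.1, h7.2⟩
  refine ⟨h1, h2, wordsCheck_mem (by simpa using h1) h2 h3, hv, fun e he => (hrep e he).1,
    fun e he => (hrep e he).2, ?_⟩
  intro k gi hk gs hgs
  have := rows_sound hv (fun g hg => hg) h6 k gi hk gs hgs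
  simpa using this

/-- The main lattice argument. -/
theorem lattice_aux {c : Config} (hf : ConfigFacts c) {H : Subgroup P8} (hx : pm c.x ∈ H)
    (hcov : ∀ σ ∈ H, ∃ e ∈ c.reps, ∃ a ∈ grp [c.x], ∃ b ∈ grp [c.x], σ = a * pm e.r * b) :
    ∀ (n i : Nat) (gi : List Elt), c.grps.length - i = n → nth c.grps i = some gi → grp gi ≤ H →
      ∃ gs ∈ c.grps, H = grp gs := by
  intro n
  induction n using Nat.strong_induction_on with
  | _ n ih =>
    intro i gi hn hnth hle
    -- a jump to a later subgroup finishes the proof
    have jump : ∀ gs, grp gs ≤ H → gs ∈ c.grps → grp gs ≤ grp gi ∨ ∃ gs' ∈ c.grps, H = grp gs' := by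
      intro gs hgs hm
      rcases hf.pairs i gi hnth gs hm with h | ⟨i', g', hi, hn', hg'⟩
      · exact Or.inl h
      · refine Or.inr ?_
        have hlt := nth_lt hn'
        exact ih (c.grps.length - i') (by omega) i' g' rfl hn' (hg'.trans (sup_le hle hgs))
    have hx0 : grp [c.x] ≤ H := by
      refine grp_le_of_mem ?_
      intro t ht
      simp only [List.mem_singleton] at ht
      subst ht
      exact hx
    rcases jump [c.x] hx0 List.mem_cons_self with h0 | h0
    swap
    · exact h0
    by_cases hall : H ≤ grp gi
    · exact ⟨gi, nth_mem hnth, le_antisymm hall hle⟩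
    · obtain ⟨σ, hσ, hσ'⟩ := SetLike.not_le_iff_exists.mp hall
      obtain ⟨e, he, a, ha, b, hb, rfl⟩ := hcov σ hσ
      -- `r` lies in `H`
      have hr : pm e.r ∈ H := by
        have h1 := H.mul_mem (H.mul_mem (H.inv_mem (hx0 ha)) hσ) (H.inv_mem (hx0 hb))
        have h2 : a⁻¹ * (a * pm e.r * b) * b⁻¹ = pm e.r := by group
        rwa [h2] at h1
      obtain ⟨gs, hn', hup, hdown⟩ := hf.reps e he
      have hgsmem : gs ∈ c.grps := nth_mem hn'
      have hLv : [c.x, e.r].all (validB 4 15 8) = true := by
        simp [hf.x_valid, hf.reps_valid e he]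
      have hgsH : grp gs ≤ H := by
        refine (wordsCheck_le hLv (hf.grps_valid gs hgsmem) hup).trans ?_
        refine grp_le_of_mem ?_
        intro t ht
        simp only [List.mem_cons, List.not_mem_nil, or_false] at ht
        rcases ht with rfl | rfl
        · exact hx
        · exact hr
      rcases jump gs hgsH hgsmem with h1 | h1
      swap
      · exact h1
      exfalso
      apply hσ'
      have hrmem : pm e.r ∈ grp gs := wordCheck_mem (hf.grps_valid gs hgsmem) (hf.reps_valid e he) hdown
      exact (grp gi).mul_mem ((grp gi).mul_mem (h0 ha) (h1 hrmem)) (h0 hb)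

/-- A subgroup containing `x`, all of whose elements are covered by the double cosets of the
representatives, is one of the listed subgroups. -/
theorem lattice_main {c : Config} (hc : c.check = true) {H : Subgroup P8} (hx : pm c.x ∈ H)
    (hcov : ∀ σ ∈ H, ∃ e ∈ c.reps, ∃ a ∈ grp [c.x], ∃ b ∈ grp [c.x], σ = a * pm e.r * b) :
    ∃ gs ∈ c.grps, H = grp gs := by
  have hf := configFacts hc
  refine lattice_aux hf hx hcov _ 0 [c.x] rfl rfl ?_
  refine grp_le_of_mem ?_
  intro t ht
  simp only [List.mem_singleton] at ht
  subst ht
  exact hx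

/-! ### The covering of `A₈` by the double cosets -/

/-- The key of a permutation: its first six values. -/
def k6 (f : Nat → Nat) : Nat :=
  Nat.add (f 0) (Nat.mul 8 (Nat.add (f 1) (Nat.mul 8 (Nat.add (f 2) (Nat.mul 8 (Nat.add (f 3)
    (Nat.mul 8 (Nat.add (f 4) (Nat.mul 8 (f 5))))))))))

/-- The key of `r * b`. -/
def keyRb (r b : Elt) : Nat := k6 (fun i => get 4 15 r.f (get 4 15 b.f i))

/-- The key of `a * r * b`. -/
def keyArb (a r b : Elt) : Nat := k6 (fun i => get 4 15 a.f (get 4 15 r.f (get 4 15 b.f i)))

/-- The keys of the double coset of a representative. -/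
def keysOf (pows : List Elt) (e : RepEntry) : List Nat :=
  bif e.nrm then pows.map (keyRb e.r) else pows.flatMap (fun a => pows.map (keyArb a e.r))

/-- All the keys. -/
def allKeys (pows : List Elt) (reps : List RepEntry) : List Nat := reps.flatMap (keysOf pows)

/-- Marking the keys in a bit set: returns the number of keys, or `0` if there is a repetition. -/
def markLen : Nat → Nat → List Nat → Nat
  | _, n, [] => n
  | acc, n, k :: ks =>
    bif Nat.testBit acc k then 0 else markLen (Nat.lor acc (Nat.shiftLeft 1 k)) (n + 1) ks

theorem markLen_spec (l : List Nat) : ∀ (acc n : Nat), markLen acc n l ≠ 0 → 0 < n ∨ l ≠ [] →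
    (∀ k ∈ l, Nat.testBit acc k = false) ∧ l.Nodup ∧ markLen acc n l = n + l.length := by
  induction l with
  | nil => intro acc n _ _; simp [markLen]
  | cons k ks ih =>
    intro acc n h _
    simp only [markLen] at h ⊢
    cases hb : Nat.testBit acc k with
    | true => simp [hb] at h
    | false =>
      simp only [hb, cond_false] at h ⊢
      obtain ⟨h1, h2, h3⟩ := ih _ _ h (Or.inl (Nat.succ_pos n))
      have hor : ∀ k' ∈ ks, Nat.testBit acc k' = false ∧ Nat.testBit (Nat.shiftLeft 1 k) k' = false := by
        intro k' hk'
        have := h1 k' hk'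
        have h4 : Nat.testBit (acc ||| Nat.shiftLeft 1 k) k' = false := this
        rw [Nat.testBit_or, Bool.or_eq_false_iff] at h4
        exact h4
      refine ⟨?_, ?_, ?_⟩
      · intro k' hk'
        rcases List.mem_cons.mp hk' with rfl | hk'
        · exact hb
        · exact (hor k' hk').1
      · refine List.nodup_cons.mpr ⟨fun hk => ?_, h2⟩
        have := (hor k hk).2
        have h5 : Nat.testBit (Nat.shiftLeft 1 k) k = true := by
          have : Nat.shiftLeft 1 k = 2 ^ k := Nat.one_shiftLeft k
          rw [this]
          exact Nat.testBit_two_pow_self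
        rw [h5] at this
        exact absurd this (by simp)
      · rw [h3]
        simp only [List.length_cons]
        omega

/-- The list of the permutations of a double coset. -/
noncomputable def permsOf (pows : List Elt) (e : RepEntry) : List P8 :=
  bif e.nrm then pows.map (fun b => pm e.r * pm b)
  else pows.flatMap (fun a => pows.map (fun b => pm a * pm e.r * pm b))

/-- The list of all the permutations. -/
noncomputable def allPerms (pows : List Elt) (reps : List RepEntry) : List P8 := reps.flatMap (permsOf pows)

/-- The key of a permutation. -/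
def key (σ : P8) : Nat := k6 (fun i => if h : i < 8 then (σ ⟨i, h⟩ : Nat) else 0)

theorem k6_congr {f g : Nat → Nat} (h : ∀ i, i < 6 → f i = g i) : k6 f = k6 g := by
  simp only [k6]
  rw [h 0 (by norm_num), h 1 (by norm_num), h 2 (by norm_num), h 3 (by norm_num), h 4 (by norm_num),
    h 5 (by norm_num)]

theorem keyRb_eq {r b : Elt} (hr : validB 4 15 8 r = true) (hb : validB 4 15 8 b = true) :
    keyRb r b = key (pm r * pm b) := by
  refine k6_congr ?_
  intro i hi
  have hi8 : i < 8 := by omega
  rw [dif_pos hi8, Equiv.Perm.mul_apply, permOf_apply hr, permOf_apply hb]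

theorem keyArb_eq {a r b : Elt} (ha : validB 4 15 8 a = true) (hr : validB 4 15 8 r = true)
    (hb : validB 4 15 8 b = true) : keyArb a r b = key (pm a * pm r * pm b) := by
  refine k6_congr ?_
  intro i hi
  have hi8 : i < 8 := by omega
  rw [dif_pos hi8, Equiv.Perm.mul_apply, Equiv.Perm.mul_apply, permOf_apply ha, permOf_apply hr, permOf_apply hb]

theorem keysOf_eq {pows : List Elt} {e : RepEntry} (hp : pows.all (validB 4 15 8) = true)
    (hr : validB 4 15 8 e.r = true) : keysOf pows e = (permsOf pows e).map key := by
  rw [List.all_eq_true] at hp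
  unfold keysOf permsOf
  cases e.nrm with
  | true =>
    simp only [cond_true, List.map_map]
    apply List.map_congr_left
    intro b hb
    exact keyRb_eq hr (hp b hb)
  | false =>
    simp only [cond_false, List.map_flatMap]
    apply List.flatMap_congr
    intro a ha
    simp only [List.map_map]
    apply List.map_congr_left
    intro b hb
    exact keyArb_eq (hp a ha) hr (hp b hb)

theorem allKeys_eq {pows : List Elt} {reps : List RepEntry} (hp : pows.all (validB 4 15 8) = true)
    (hr : ∀ e ∈ reps, validB 4 15 8 e.r = true) : allKeys pows reps = (allPerms pows reps).map key := by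
  unfold allKeys allPerms
  rw [List.map_flatMap]
  apply List.flatMap_congr
  intro e he
  exact keysOf_eq hp (hr e he)

theorem card_A8 : Nat.card (alternatingGroup (Fin 8)) = 20160 := by
  rw [nat_card_alternatingGroup]
  simp [Nat.factorial]

/-- A list of `20160` different even permutations is the whole alternating group. -/
theorem mem_of_nodup {l : List P8} (hn : l.Nodup) (hl : l.length = 20160)
    (hA : ∀ σ ∈ l, σ ∈ alternatingGroup (Fin 8)) {σ : P8} (hσ : σ ∈ alternatingGroup (Fin 8)) : σ ∈ l := by
  classical
  have h1 : l.toFinset ⊆ Finset.univ.filter (· ∈ alternatingGroup (Fin 8)) := by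
    intro τ hτ
    simp only [Finset.mem_filter, Finset.mem_univ, true_and]
    exact hA τ (List.mem_toFinset.mp hτ)
  have h2 : (Finset.univ.filter (· ∈ alternatingGroup (Fin 8))).card ≤ l.toFinset.card := by
    rw [List.toFinset_card_of_nodup hn, hl, ← card_A8, Nat.card_eq_fintype_card,
      Fintype.card_subtype]
  have h3 := Finset.eq_of_subset_of_card_le h1 h2
  have h4 : σ ∈ l.toFinset := by
    rw [h3]
    simpa using hσ
  exact List.mem_toFinset.mp h4

/-- The covering theorem: a subgroup of `A₈` satisfies the hypothesis of `lattice_main`. -/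
theorem cover {c : Config} (hc : c.check = true)
    (heven : ∀ gs ∈ c.grps, ∀ g ∈ gs, Equiv.Perm.sign (pm g) = 1)
    (hmark : Nat.beq (markLen 0 0 (allKeys c.pows c.reps)) 20160 = true)
    {σ : P8} (hσ : σ ∈ alternatingGroup (Fin 8)) :
    ∃ e ∈ c.reps, ∃ a ∈ grp [c.x], ∃ b ∈ grp [c.x], σ = a * pm e.r * b := by
  have hf := configFacts hc
  have hgA : ∀ gs ∈ c.grps, grp gs ≤ alternatingGroup (Fin 8) := by
    intro gs hgs
    refine grp_le_of_mem ?_
    intro t ht
    exact Equiv.Perm.mem_alternatingGroup.mpr (heven gs hgs t ht)
  have hxA : grp [c.x] ≤ alternatingGroup (Fin 8) := hgA _ List.mem_cons_self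
  have hrA : ∀ e ∈ c.reps, pm e.r ∈ alternatingGroup (Fin 8) := by
    intro e he
    obtain ⟨gs, hn', -, hdown⟩ := hf.reps e he
    have hgs := nth_mem hn'
    exact hgA gs hgs (wordCheck_mem (hf.grps_valid gs hgs) (hf.reps_valid e he) hdown)
  have hm := Nat.eq_of_beq_eq_true hmark
  obtain ⟨-, h2, h3⟩ := markLen_spec (allKeys c.pows c.reps) 0 0 (by rw [hm]; norm_num)
    (by
      right
      intro hnil
      rw [hnil] at hm
      simp [markLen] at hm)
  rw [hm] at h3
  have heq := allKeys_eq (reps := c.reps) hf.pows_valid hf.reps_valid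
  rw [heq] at h2 h3
  have hnodup : (allPerms c.pows c.reps).Nodup := List.Nodup.of_map _ h2
  have hlen : (allPerms c.pows c.reps).length = 20160 := by
    simpa using h3.symm
  have hmem : σ ∈ allPerms c.pows c.reps := by
    refine mem_of_nodup hnodup hlen ?_ hσ
    intro τ hτ
    obtain ⟨e, he, hτ⟩ := List.mem_flatMap.mp hτ
    unfold permsOf at hτ
    cases hb : e.nrm with
    | true =>
      rw [hb] at hτ
      obtain ⟨b, hb', rfl⟩ := List.mem_map.mp hτ
      exact (alternatingGroup (Fin 8)).mul_mem (hrA e he) (hxA (hf.pows_mem b hb'))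
    | false =>
      rw [hb] at hτ
      obtain ⟨a, ha, hτ⟩ := List.mem_flatMap.mp hτ
      obtain ⟨b, hb', rfl⟩ := List.mem_map.mp hτ
      exact (alternatingGroup (Fin 8)).mul_mem
        ((alternatingGroup (Fin 8)).mul_mem (hxA (hf.pows_mem a ha)) (hrA e he)) (hxA (hf.pows_mem b hb'))
  obtain ⟨e, he, hτ⟩ := List.mem_flatMap.mp hmem
  unfold permsOf at hτ
  cases hb : e.nrm with
  | true =>
    rw [hb] at hτ
    obtain ⟨b, hb', rfl⟩ := List.mem_map.mp hτ
    exact ⟨e, he, 1, Subgroup.one_mem _, pm b, hf.pows_mem b hb', by simp⟩
  | false =>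
    rw [hb] at hτ
    obtain ⟨a, ha, hτ⟩ := List.mem_flatMap.mp hτ
    obtain ⟨b, hb', rfl⟩ := List.mem_map.mp hτ
    exact ⟨e, he, pm a, hf.pows_mem a ha, pm b, hf.pows_mem b hb', rfl⟩

end Cfsg.Agent.Lib.Compute.A8Lat
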