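import Mathlib
import Cfsg.Agent.Lib.Compute.A8Lat.Core

/-!
# Certificates for the subgroups of the lattice

A listed subgroup is recognized by three stabilizer chains (an isomorphism with a permutation group on
another set of points, seen as a group on the disjoint union), or it has a nontrivial normal `p`-subgroup
(given by a stabilizer chain).
-/

set_option autoImplicit false

namespace Cfsg.Agent.Lib.Compute.A8Lat

open Cfsg.Agent.Lib.Compute.PermCert
open Cfsg.Agent.Lib.Basic.PCore

/-- The list of targets of the classification. -/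
def Target (G : Type) [Group G] : Prop :=
  (∃ n : ℕ, 5 ≤ n ∧ n ≤ 8 ∧ Nonempty (G ≃* alternatingGroup (Fin n))) ∨
    Nonempty (G ≃* Equiv.Perm (Fin 5)) ∨ Nonempty (G ≃* Equiv.Perm (Fin 6)) ∨
    Nonempty (G ≃* GL (Fin 3) (ZMod 2))

theorem Target.of_equiv {G G' : Type} [Group G] [Group G'] (e : G ≃* G') (h : Target G') : Target G := by
  rcases h with ⟨n, h5, h8, ⟨f⟩⟩ | ⟨⟨f⟩⟩ | ⟨⟨f⟩⟩ | ⟨⟨f⟩⟩
  · exact Or.inl ⟨n, h5, h8, ⟨e.trans f⟩⟩
  · exact Or.inr (Or.inl ⟨e.trans f⟩)
  · exact Or.inr (Or.inr (Or.inl ⟨e.trans f⟩))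
  · exact Or.inr (Or.inr (Or.inr ⟨e.trans f⟩))

/-- The conclusion for a subgroup of `A₈`. -/
def Concl (K : Subgroup P8) : Prop :=
  Cfsg.pPrimeCore 2 ↥K = ⊥ → Cfsg.pCore 2 ↥K = ⊥ → Target ↥K

/-! ### The disjoint union -/

/-- The action on the disjoint union of the points. -/
noncomputable def iota (m : Nat) : P8 × Equiv.Perm (Fin m) →* Equiv.Perm (Fin (8 + m)) :=
  (Equiv.permCongrHom finSumFinEquiv).toMonoidHom.comp (Equiv.Perm.sumCongrHom (Fin 8) (Fin m))

theorem iota_injective (m : Nat) : Function.Injective (iota m) := by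
  intro a b h
  apply Equiv.Perm.sumCongrHom_injective
  exact (Equiv.permCongrHom finSumFinEquiv).injective h

theorem iota_castAdd (m : Nat) (a : P8) (b : Equiv.Perm (Fin m)) (j : Fin 8) :
    iota m (a, b) (Fin.castAdd m j) = Fin.castAdd m (a j) := by
  simp [iota, Equiv.permCongrHom, Equiv.permCongr_apply, finSumFinEquiv_symm_apply_castAdd,
    finSumFinEquiv_apply_left]

theorem iota_natAdd (m : Nat) (a : P8) (b : Equiv.Perm (Fin m)) (k : Fin m) :
    iota m (a, b) (Fin.natAdd 8 k) = Fin.natAdd 8 (b k) := by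
  simp [iota, Equiv.permCongrHom, Equiv.permCongr_apply, finSumFinEquiv_symm_apply_natAdd,
    finSumFinEquiv_apply_right]

/-- The check of a triple of generators. -/
def comb1 (m : Nat) (g t c : Elt) : Bool :=
  allB (fun i => Nat.beq (get 4 15 c.f i)
    (bif Nat.blt i 8 then get 4 15 g.f i else Nat.add 8 (get 4 15 t.f (Nat.sub i 8)))) (8 + m)

/-- The check of the triples of generators. -/
def combCheck (m : Nat) : List Elt → List Elt → List Elt → Bool
  | [], [], [] => true
  | g :: gs, t :: ts, c :: cs => comb1 m g t c && combCheck m gs ts cs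
  | _, _, _ => false

theorem comb1_sound {m : Nat} {g t c : Elt} (hg : validB 4 15 8 g = true) (ht : validB 4 15 m t = true)
    (hc : validB 4 15 (8 + m) c = true) (h : comb1 m g t c = true) :
    iota m (pm g, permOf 4 15 m t) = permOf 4 15 (8 + m) c := by
  rw [comb1, allB_iff] at h
  ext i
  refine Fin.addCases (fun j => ?_) (fun k => ?_) i
  · rw [iota_castAdd]
    have h1 := h (Fin.castAdd m j) (Fin.castAdd m j).2
    rw [Nat.beq_eq] at h1
    rw [permOf_apply hc, h1]
    have hj : Nat.blt (Fin.castAdd m j : Nat) 8 = true := by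
      simp [Nat.blt_eq]
    rw [hj]
    simp only [cond_true, Fin.val_castAdd]
    exact permOf_apply hg j
  · rw [iota_natAdd]
    have h1 := h (Fin.natAdd 8 k) (Fin.natAdd 8 k).2
    rw [Nat.beq_eq] at h1
    rw [permOf_apply hc, h1]
    have hj : Nat.blt (Fin.natAdd 8 k : Nat) 8 = false := by
      cases hb : Nat.blt (Fin.natAdd 8 k : Nat) 8 with
      | false => rfl
      | true =>
        rw [Nat.blt_eq] at hb
        simp only [Fin.val_natAdd] at hb
        omega
    rw [hj]
    simp only [cond_false, Fin.val_natAdd]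
    have h8 : Nat.sub (8 + (k : Nat)) 8 = k := by
      show 8 + (k : Nat) - 8 = k
      omega
    rw [h8, permOf_apply ht k]
    rfl

/-- The set of the pairs of generators. -/
noncomputable def pairSet (m : Nat) : List Elt → List Elt → Set (P8 × Equiv.Perm (Fin m))
  | g :: gs, t :: ts => insert (pm g, permOf 4 15 m t) (pairSet m gs ts)
  | _, _ => ∅

theorem genSet_cons (w m n : Nat) (a : Elt) (l : List Elt) :
    {x | ∃ e ∈ a :: l, permOf w m n e = x} = insert (permOf w m n a) {x | ∃ e ∈ l, permOf w m n e = x} := by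
  ext x
  simp only [List.mem_cons, Set.mem_ofPred_eq, Set.mem_insert_iff]
  constructor
  · rintro ⟨e, rfl | he, rfl⟩
    · exact Or.inl rfl
    · exact Or.inr ⟨e, he, rfl⟩
  · rintro (rfl | ⟨e, he, rfl⟩)
    · exact ⟨a, Or.inl rfl, rfl⟩
    · exact ⟨e, Or.inr he, rfl⟩

theorem genSet_nil (w m n : Nat) : {x | ∃ e ∈ ([] : List Elt), permOf w m n e = x} = ∅ := by
  ext x
  simp

theorem pairSet_images {m : Nat} {gs ts cs : List Elt} (hg : gs.all (validB 4 15 8) = true)
    (ht : ts.all (validB 4 15 m) = true) (hc : cs.all (validB 4 15 (8 + m)) = true)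
    (h : combCheck m gs ts cs = true) :
    (MonoidHom.fst _ _) '' pairSet m gs ts = {x | ∃ e ∈ gs, permOf 4 15 8 e = x} ∧
    (MonoidHom.snd _ _) '' pairSet m gs ts = {x | ∃ e ∈ ts, permOf 4 15 m e = x} ∧
    (iota m) '' pairSet m gs ts = {x | ∃ e ∈ cs, permOf 4 15 (8 + m) e = x} := by
  induction gs generalizing ts cs with
  | nil =>
    cases ts with
    | nil =>
      cases cs with
      | nil => simp [pairSet]
      | cons _ _ => simp [combCheck] at h
    | cons _ _ => simp [combCheck] at h
  | cons g gs ih =>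
    cases ts with
    | nil => simp [combCheck] at h
    | cons t ts =>
      cases cs with
      | nil => simp [combCheck] at h
      | cons c cs =>
        simp only [combCheck, Bool.and_eq_true] at h
        simp only [List.all_cons, Bool.and_eq_true] at hg ht hc
        obtain ⟨i1, i2, i3⟩ := ih hg.2 ht.2 hc.2 h.2
        have h1 := comb1_sound hg.1 ht.1 hc.1 h.1
        refine ⟨?_, ?_, ?_⟩
        · rw [pairSet, Set.image_insert_eq, i1, genSet_cons]
          rfl
        · rw [pairSet, Set.image_insert_eq, i2, genSet_cons]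
          rfl
        · rw [pairSet, Set.image_insert_eq, i3, genSet_cons, h1]

theorem equiv_map_of_card {X Y : Type*} [Group X] [Group Y] [Finite X] (Γ : Subgroup X) (f : X →* Y)
    (h : Nat.card (Γ.map f) = Nat.card Γ) : Nonempty (Γ ≃* Γ.map f) :=
  ⟨MulEquiv.ofBijective (f.subgroupMap Γ)
    ((f.subgroupMap_surjective Γ).bijective_of_nat_card_le h.ge)⟩

/-- The isomorphism given by three chains. -/
theorem iso_of_chains {m : Nat} {chG chT chC : List Level}
    (hG : chainCheck 4 15 8 chG = true) (hT : chainCheck 4 15 m chT = true)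
    (hC : chainCheck 4 15 (8 + m) chC = true)
    (hcomb : combCheck m (nextGens chG) (nextGens chT) (nextGens chC) = true)
    (h1 : chainOrder chG = chainOrder chC) (h2 : chainOrder chT = chainOrder chC) :
    Nonempty (↥(grp (nextGens chG)) ≃* ↥(genGroup 4 15 m (nextGens chT))) := by
  obtain ⟨i1, i2, i3⟩ := pairSet_images (chain_gens_valid hG) (chain_gens_valid hT) (chain_gens_valid hC) hcomb
  set Γ := Subgroup.closure (pairSet m (nextGens chG) (nextGens chT)) with hΓ
  have e1 : Γ.map (MonoidHom.fst _ _) = grp (nextGens chG) := by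
    rw [hΓ, MonoidHom.map_closure, i1]
    rfl
  have e2 : Γ.map (MonoidHom.snd _ _) = genGroup 4 15 m (nextGens chT) := by
    rw [hΓ, MonoidHom.map_closure, i2]
    rfl
  have e3 : Γ.map (iota m) = genGroup 4 15 (8 + m) (nextGens chC) := by
    rw [hΓ, MonoidHom.map_closure, i3]
    rfl
  have c3 : Nat.card Γ = chainOrder chC := by
    have := chain_card hC
    rw [chainGroup, ← e3] at this
    rw [← this]
    exact (Nat.card_congr (Γ.equivMapOfInjective (iota m) (iota_injective m)).toEquiv)
  have c1 : Nat.card ↥(Γ.map (MonoidHom.fst _ _)) = Nat.card Γ := by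
    rw [e1, c3, ← h1]
    exact chain_card hG
  have c2 : Nat.card ↥(Γ.map (MonoidHom.snd _ _)) = Nat.card Γ := by
    rw [e2, c3, ← h2]
    exact chain_card hT
  obtain ⟨f1⟩ := equiv_map_of_card Γ _ c1
  obtain ⟨f2⟩ := equiv_map_of_card Γ _ c2
  rw [e1] at f1
  rw [e2] at f2
  exact ⟨f1.symm.trans f2⟩

/-! ### The targets -/

theorem alt_of_card {n : Nat} (hn : 2 ≤ n) (T : Subgroup (Equiv.Perm (Fin n))) (h : 2 * Nat.card T = n.factorial) :
    Nonempty (T ≃* alternatingGroup (Fin n)) := by
  have h1 : T.index = 2 := by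
    have h2 := T.card_mul_index
    rw [Nat.card_perm, Nat.card_fin, ← h] at h2
    have h3 : 0 < Nat.card T := Nat.card_pos
    nlinarith
  have h4 := Equiv.Perm.eq_alternatingGroup_of_index_eq_two h1
  exact ⟨MulEquiv.subgroupCongr h4⟩

theorem sym_of_card {n : Nat} (T : Subgroup (Equiv.Perm (Fin n))) (h : Nat.card T = n.factorial) :
    Nonempty (T ≃* Equiv.Perm (Fin n)) := by
  have h1 : T = ⊤ := by
    apply Subgroup.eq_top_of_card_eq
    rw [h, Nat.card_perm, Nat.card_fin]
  subst h1
  exact ⟨Subgroup.topEquiv⟩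

/-! ### The natural action of `GL₃(2)` -/

/-- The vectors of `𝔽₂³` as numbers. -/
def vecEquiv : (Fin 3 → ZMod 2) ≃ Fin 8 where
  toFun v := ⟨(v 0).val + 2 * (v 1).val + 4 * (v 2).val, by
    have h0 := ZMod.val_lt (v 0)
    have h1 := ZMod.val_lt (v 1)
    have h2 := ZMod.val_lt (v 2)
    omega⟩
  invFun i := ![((i.val : ℕ) : ZMod 2), ((i.val / 2 : ℕ) : ZMod 2), ((i.val / 4 : ℕ) : ZMod 2)]
  left_inv := by decide
  right_inv := by decide

/-- A matrix as a permutation of the vectors. -/
def actPerm (A : GL (Fin 3) (ZMod 2)) : Equiv.Perm (Fin 3 → ZMod 2) where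
  toFun v := A.1.mulVec v
  invFun v := (A⁻¹).1.mulVec v
  left_inv v := by
    show (A⁻¹).1.mulVec (A.1.mulVec v) = v
    rw [Matrix.mulVec_mulVec, ← Units.val_mul, inv_mul_cancel]
    simp
  right_inv v := by
    show A.1.mulVec ((A⁻¹).1.mulVec v) = v
    rw [Matrix.mulVec_mulVec, ← Units.val_mul, mul_inv_cancel]
    simp

/-- The natural action of `GL₃(2)` on the eight vectors. -/
def rho : GL (Fin 3) (ZMod 2) →* P8 where
  toFun A := vecEquiv.permCongr (actPerm A)
  map_one' := by
    ext v
    simp [actPerm, Equiv.permCongr_apply]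
  map_mul' A B := by
    ext v
    simp [actPerm, Equiv.permCongr_apply, Matrix.mulVec_mulVec]

theorem rho_injective : Function.Injective rho := by
  rw [injective_iff_map_eq_one]
  intro A hA
  apply Units.ext
  apply Matrix.ext_of_mulVec_single
  intro i
  have h1 : ∀ v : Fin 3 → ZMod 2, A.1.mulVec v = v := by
    intro v
    have h2 : rho A (vecEquiv v) = vecEquiv v := by rw [hA]; rfl
    have h3 : rho A (vecEquiv v) = vecEquiv (A.1.mulVec v) := by
      show vecEquiv ((actPerm A) (vecEquiv.symm (vecEquiv v))) = _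
      rw [Equiv.symm_apply_apply]
      rfl
    rw [h3] at h2
    exact vecEquiv.injective h2
  rw [h1, Units.val_one, Matrix.one_mulVec]

theorem card_GL3 : Nat.card (GL (Fin 3) (ZMod 2)) = 168 := by
  rw [Matrix.card_GL_field]
  simp [ZMod.card, Fin.prod_univ_succ]

theorem gl3_of_le {T : Subgroup P8} (h1 : T ≤ rho.range) (h2 : Nat.card T = 168) :
    Nonempty (T ≃* GL (Fin 3) (ZMod 2)) := by
  have h3 : T = rho.range := by
    apply Subgroup.eq_of_le_of_card_ge h1
    have := Nat.card_congr (MonoidHom.ofInjective rho_injective).toEquiv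
    rw [← this, card_GL3, h2]
  subst h3
  exact ⟨(MonoidHom.ofInjective rho_injective).symm⟩

/-! ### Radicals -/

/-- The check of a normal `p`-subgroup. -/
def radCheck (gs : List Elt) (p k : Nat) (chN : List Level) (ws : List (List Nat)) : Bool :=
  chainCheck 4 15 8 chN && gs.all (validB 4 15 8) && wordsCheck gs (nextGens chN) ws &&
    Nat.beq (chainOrder chN) (p ^ k) && Nat.blt 0 k &&
    (Nat.beq p 2 || Nat.beq p 3 || Nat.beq p 5 || Nat.beq p 7) &&
    gs.all (fun g => (nextGens chN).all (fun n =>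
      sift 4 15 8 chN (fun i => get 4 15 g.f (get 4 15 n.f (get 4 15 g.g i))) &&
      sift 4 15 8 chN (fun i => get 4 15 g.g (get 4 15 n.f (get 4 15 g.f i)))))

theorem rad_sound {gs : List Elt} {p k : Nat} {chN : List Level} {ws : List (List Nat)}
    (h : radCheck gs p k chN ws = true) : ¬ (Cfsg.pPrimeCore 2 ↥(grp gs) = ⊥ ∧ Cfsg.pCore 2 ↥(grp gs) = ⊥) := by
  simp only [radCheck, Bool.and_eq_true, Nat.beq_eq, Nat.blt_eq, Bool.or_eq_true] at h
  obtain ⟨⟨⟨⟨⟨⟨h1, h2⟩, h3⟩, h4⟩, h5⟩, h6⟩, h7⟩ := h
  have hvN := chain_gens_valid h1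
  set N : Subgroup P8 := chainGroup 4 15 8 chN with hN
  have hNle : N ≤ grp gs := wordsCheck_le h2 hvN h3
  have hcard : Nat.card N = p ^ k := by
    rw [hN, chain_card h1, h4]
  have hprime : p.Prime := by
    rcases h6 with ((h | h) | h) | h <;> subst h <;> norm_num
  have : Fact p.Prime := ⟨hprime⟩
  have hP : IsPGroup p N := IsPGroup.of_card hcard
  -- normality
  rw [List.all_eq_true] at h2 h7
  have hconj : ∀ g ∈ gs, ∀ n ∈ N, pm g * n * (pm g)⁻¹ ∈ N ∧ (pm g)⁻¹ * n * pm g ∈ N := by
    intro g hg n hn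
    have hgv := h2 g hg
    have h8 := h7 g hg
    rw [List.all_eq_true] at h8
    rw [List.all_eq_true] at hvN
    have hgens : ∀ t ∈ nextGens chN, pm g * pm t * (pm g)⁻¹ ∈ N ∧ (pm g)⁻¹ * pm t * pm g ∈ N := by
      intro t ht
      have h9 := h8 t ht
      rw [Bool.and_eq_true] at h9
      have htv := hvN t ht
      constructor
      · refine sift_sound h1 _ _ ?_ h9.1
        intro i
        simp only [Equiv.Perm.mul_apply]
        rw [permOf_apply hgv, permOf_apply htv, permOf_symm_apply hgv]
      · refine sift_sound h1 _ _ ?_ h9.2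
        intro i
        simp only [Equiv.Perm.mul_apply]
        rw [permOf_symm_apply hgv, permOf_apply htv, permOf_apply hgv]
    have h10 : N ≤ N.comap (MulAut.conj (pm g)).toMonoidHom := by
      refine grp_le_of_mem ?_
      intro t ht
      rw [Subgroup.mem_comap]
      exact (hgens t ht).1
    have h11 : N ≤ N.comap (MulAut.conj (pm g)⁻¹).toMonoidHom := by
      refine grp_le_of_mem ?_
      intro t ht
      rw [Subgroup.mem_comap]
      have := (hgens t ht).2
      simpa [MulAut.conj_apply] using this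
    refine ⟨?_, ?_⟩
    · have := h10 hn
      rw [Subgroup.mem_comap] at this
      simpa [MulAut.conj_apply] using this
    · have := h11 hn
      rw [Subgroup.mem_comap] at this
      simpa [MulAut.conj_apply] using this
  have hnorm : grp gs ≤ Subgroup.normalizer (N : Set P8) := by
    refine grp_le_of_mem ?_
    intro g hg
    rw [Subgroup.mem_normalizer_iff]
    intro n
    constructor
    · intro hn
      exact (hconj g hg n hn).1
    · intro hn
      have := (hconj g hg _ hn).2
      have e : (pm g)⁻¹ * (pm g * n * (pm g)⁻¹) * pm g = n := by group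
      rwa [e] at this
  have hnormal : (N.subgroupOf (grp gs)).Normal := Subgroup.normal_subgroupOf_iff_le_normalizer hNle |>.mpr hnorm
  have hcard' : Nat.card (N.subgroupOf (grp gs)) = p ^ k :=
    (Nat.card_congr (Subgroup.subgroupOfEquivOfLe hNle).toEquiv).trans hcard
  have hne : N.subgroupOf (grp gs) ≠ ⊥ := by
    intro hbot
    rw [hbot, Subgroup.card_bot] at hcard'
    have : 1 < p ^ k := Nat.one_lt_pow (by omega) hprime.one_lt
    omega
  rintro ⟨hA, hB⟩
  by_cases hp2 : p = 2
  · subst hp2
    have : N.subgroupOf (grp gs) ≤ Cfsg.pCore 2 ↥(grp gs) :=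
      le_pCore hnormal (IsPGroup.of_card hcard')
    rw [hB] at this
    exact hne (le_bot_iff.mp this)
  · have hco : (Nat.card (N.subgroupOf (grp gs))).Coprime 2 := by
      rw [hcard']
      apply Nat.Coprime.pow_left
      exact (Nat.coprime_primes hprime Nat.prime_two).mpr hp2
    have : N.subgroupOf (grp gs) ≤ Cfsg.pPrimeCore 2 ↥(grp gs) := le_pPrimeCore hnormal hco
    rw [hA] at this
    exact hne (le_bot_iff.mp this)

/-! ### The certificate of a subgroup -/

/-- Equality of lists of elements. -/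
def eltsEq : List Elt → List Elt → Bool
  | [], [] => true
  | a :: l, b :: l' => Nat.beq a.f b.f && Nat.beq a.g b.g && eltsEq l l'
  | _, _ => false

theorem eltsEq_sound {a b : List Elt} (h : eltsEq a b = true) : a = b := by
  induction a generalizing b with
  | nil =>
    cases b with
    | nil => rfl
    | cons _ _ => simp [eltsEq] at h
  | cons x a ih =>
    cases b with
    | nil => simp [eltsEq] at h
    | cons y b =>
      simp only [eltsEq, Bool.and_eq_true, Nat.beq_eq] at h
      obtain ⟨⟨h1, h2⟩, h3⟩ := h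
      have : x = y := by
        cases x
        cases y
        simp_all
      rw [this, ih h3]

/-- The certificate of a subgroup of the lattice. -/
inductive GCert where
  | alt (n : Nat) (chG chT chC : List Level)
  | sym (n : Nat) (chG chT chC : List Level)
  | gl3 (chG chT chC : List Level)
  | rad (p k : Nat) (chN : List Level) (ws : List (List Nat))

/-- The check of three chains. -/
def isoCheck (gs : List Elt) (m : Nat) (chG chT chC : List Level) : Bool :=
  eltsEq gs (nextGens chG) && chainCheck 4 15 8 chG && chainCheck 4 15 m chT &&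
    chainCheck 4 15 (8 + m) chC && combCheck m (nextGens chG) (nextGens chT) (nextGens chC) &&
    Nat.beq (chainOrder chG) (chainOrder chC) && Nat.beq (chainOrder chT) (chainOrder chC)

theorem isoCheck_sound {gs : List Elt} {m : Nat} {chG chT chC : List Level}
    (h : isoCheck gs m chG chT chC = true) :
    chainCheck 4 15 m chT = true ∧ Nonempty (↥(grp gs) ≃* ↥(genGroup 4 15 m (nextGens chT))) := by
  simp only [isoCheck, Bool.and_eq_true, Nat.beq_eq] at h
  obtain ⟨⟨⟨⟨⟨⟨h1, h2⟩, h3⟩, h4⟩, h5⟩, h6⟩, h7⟩ := h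
  have := eltsEq_sound h1
  subst this
  exact ⟨h3, iso_of_chains h2 h3 h4 h5 h6 h7⟩

/-- The check of a certificate, with the generators `ts₀` of `GL₃(2)`. -/
def gcertCheck (ts₀ : List Elt) (gs : List Elt) : GCert → Bool
  | .alt n chG chT chC =>
    Nat.ble 5 n && Nat.ble n 8 && isoCheck gs n chG chT chC &&
      Nat.beq (2 * chainOrder chT) n.factorial
  | .sym n chG chT chC =>
    (Nat.beq n 5 || Nat.beq n 6) && isoCheck gs n chG chT chC &&
      Nat.beq (chainOrder chT) n.factorial
  | .gl3 chG chT chC =>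
    isoCheck gs 8 chG chT chC && eltsEq (nextGens chT) ts₀ && Nat.beq (chainOrder chT) 168
  | .rad p k chN ws => radCheck gs p k chN ws

theorem gcert_sound {ts₀ : List Elt} (hts : genGroup 4 15 8 ts₀ ≤ rho.range) {gs : List Elt} {c : GCert}
    (h : gcertCheck ts₀ gs c = true) : Concl (grp gs) := by
  intro hA hB
  cases c with
  | alt n chG chT chC =>
    simp only [gcertCheck, Bool.and_eq_true, Nat.beq_eq, Nat.ble_eq] at h
    obtain ⟨⟨⟨h5, h8⟩, hi⟩, ho⟩ := h
    obtain ⟨hT, ⟨f⟩⟩ := isoCheck_sound hi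
    have hc := chain_card hT
    obtain ⟨f2⟩ := alt_of_card (n := n) (by omega) (genGroup 4 15 n (nextGens chT))
      (by rw [← ho, ← hc]; rfl)
    exact Or.inl ⟨n, h5, h8, ⟨f.trans f2⟩⟩
  | sym n chG chT chC =>
    simp only [gcertCheck, Bool.and_eq_true, Nat.beq_eq, Bool.or_eq_true] at h
    obtain ⟨⟨hn, hi⟩, ho⟩ := h
    obtain ⟨hT, ⟨f⟩⟩ := isoCheck_sound hi
    have hc := chain_card hT
    obtain ⟨f2⟩ := sym_of_card (n := n) (genGroup 4 15 n (nextGens chT))
      (by rw [← ho, ← hc]; rfl)
    rcases hn with rfl | rfl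
    · exact Or.inr (Or.inl ⟨f.trans f2⟩)
    · exact Or.inr (Or.inr (Or.inl ⟨f.trans f2⟩))
  | gl3 chG chT chC =>
    simp only [gcertCheck, Bool.and_eq_true, Nat.beq_eq] at h
    obtain ⟨⟨hi, he⟩, ho⟩ := h
    obtain ⟨hT, ⟨f⟩⟩ := isoCheck_sound hi
    have hc := chain_card hT
    have he' := eltsEq_sound he
    obtain ⟨f2⟩ := gl3_of_le (T := genGroup 4 15 8 (nextGens chT)) (by rw [he']; exact hts)
      (by rw [← ho, ← hc]; rfl)
    exact Or.inr (Or.inr (Or.inr ⟨f.trans f2⟩))
  | rad p k chN ws =>
    exact absurd ⟨hA, hB⟩ (rad_sound h)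

/-- The check of a list of certificates. -/
def certsCheck (ts₀ : List Elt) : List (List Elt) → List GCert → Bool
  | [], _ => true
  | _ :: _, [] => false
  | gs :: l, c :: cs => gcertCheck ts₀ gs c && certsCheck ts₀ l cs

theorem certs_sound {ts₀ : List Elt} (hts : genGroup 4 15 8 ts₀ ≤ rho.range) {l : List (List Elt)}
    {cs : List GCert} (h : certsCheck ts₀ l cs = true) : ∀ gs ∈ l, Concl (grp gs) := by
  induction l generalizing cs with
  | nil => simp
  | cons a t ih =>
    cases cs with
    | nil => simp [certsCheck] at h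
    | cons c cs =>
      simp only [certsCheck, Bool.and_eq_true] at h
      intro gs hgs
      rcases List.mem_cons.mp hgs with rfl | hgs
      · exact gcert_sound hts h.1
      · exact ih h.2 gs hgs

/-- The conclusion of the lattice: any subgroup of `A₈` containing `x` satisfies the conclusion. -/
theorem config_concl {c : Config} {ts₀ : List Elt} (hts : genGroup 4 15 8 ts₀ ≤ rho.range)
    (hc : c.check = true)
    (heven : ∀ gs ∈ c.grps, ∀ g ∈ gs, Equiv.Perm.sign (pm g) = 1)
    (hmark : Nat.beq (markLen 0 0 (allKeys c.pows c.reps)) 20160 = true)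
    {certs : List GCert} (hcerts : certsCheck ts₀ c.grps certs = true)
    {H : Subgroup P8} (hHA : H ≤ alternatingGroup (Fin 8)) (hx : pm c.x ∈ H) : Concl H := by
  obtain ⟨gs, hgs, rfl⟩ := lattice_main hc hx (fun σ hσ => cover hc heven hmark (hHA hσ))
  exact certs_sound hts hcerts gs hgs

end Cfsg.Agent.Lib.Compute.A8Lat
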