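import Mathlib
import Cfsg.Agent.Lib.Compute.A8Lat.Iso

/-! The generators of `GL₃(2)` acting on the eight vectors of `𝔽₂³`. -/

set_option autoImplicit false

namespace Cfsg.Agent.Lib.Compute.A8Lat

open Cfsg.Agent.Lib.Compute.PermCert

/-- The generators of `GL₃(2)`, as tables. -/
def ts0 : List Elt := [⟨1460888608, 1668432208⟩, ⟨1733567248, 1733567248⟩]

/-- A matrix of order seven. -/
def matA1 : GL (Fin 3) (ZMod 2) :=
  ⟨!![0, 0, 1; 1, 0, 1; 0, 1, 0], !![1, 1, 0; 0, 0, 1; 1, 0, 0], by decide +kernel, by decide +kernel⟩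

/-- A transvection. -/
def matA2 : GL (Fin 3) (ZMod 2) :=
  ⟨!![1, 1, 0; 0, 1, 0; 0, 0, 1], !![1, 1, 0; 0, 1, 0; 0, 0, 1], by decide +kernel, by decide +kernel⟩

theorem rho_A1 : rho matA1 = pm ⟨1460888608, 1668432208⟩ := by
  have h : ∀ i : Fin 8, rho matA1 i = pm ⟨1460888608, 1668432208⟩ i := by decide +kernel
  exact Equiv.ext h

theorem rho_A2 : rho matA2 = pm ⟨1733567248, 1733567248⟩ := by
  have h : ∀ i : Fin 8, rho matA2 i = pm ⟨1733567248, 1733567248⟩ i := by decide +kernel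
  exact Equiv.ext h

theorem ts0_le : genGroup 4 15 8 ts0 ≤ rho.range := by
  refine grp_le_of_mem ?_
  intro t ht
  simp only [ts0, List.mem_cons, List.not_mem_nil, or_false] at ht
  rcases ht with rfl | rfl
  · exact ⟨matA1, rho_A1⟩
  · exact ⟨matA2, rho_A2⟩

end Cfsg.Agent.Lib.Compute.A8Lat
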