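import Mathlib
import Cfsg.Agent.Lib.Compute.A8Lat.Gl3
import Cfsg.Agent.Lib.Compute.A8Lat.Data7

set_option autoImplicit false
set_option maxRecDepth 100000

namespace Cfsg.Agent.Lib.Compute.A8Lat.Check7

open Cfsg.Agent.Lib.Compute.PermCert Cfsg.Agent.Lib.Compute.A8Lat Data7

theorem check : cfg.check = true := by decide +kernel

theorem even : ∀ gs ∈ cfg.grps, ∀ g ∈ gs, Equiv.Perm.sign (pm g) = 1 := by decide +kernel

theorem mark : Nat.beq (markLen 0 0 (allKeys cfg.pows cfg.reps)) 20160 = true := by decide +kernel

theorem certs_ok : certsCheck ts0 cfg.grps certs = true := by decide +kernel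

/-- A subgroup of `A₈` containing the cycle of length seven satisfies the conclusion. -/
theorem concl {H : Subgroup P8} (hHA : H ≤ alternatingGroup (Fin 8)) (hx : pm cfg.x ∈ H) : Concl H :=
  config_concl ts0_le check even mark certs_ok hHA hx

end Cfsg.Agent.Lib.Compute.A8Lat.Check7
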